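import Cfsg.Agent.G75.DD

/-! Sylow `2`-subgroups whose centre has index four. -/

set_option autoImplicit false
set_option linter.unusedSectionVars false
set_option linter.unusedVariables false

namespace Cfsg.Agent.G75

open Subgroup Cfsg.Agent.FT Cfsg.Agent.GW
open scoped commutatorElement

variable {G : Type*} [Group G] [Finite G] {A B H K P R S T : Subgroup G} {a b c d e g k m p q r s t u v w x y z : G}

/-- a nonabelian Sylow subgroup with centre of index four and derived subgroup `⟨z⟩` -/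
structure Q4 (S : Subgroup G) (z : G) : Prop where
  syl : Syl 2 S ⊤
  hz : Invo z
  zS : z ∈ S
  zc : S ≤ C[z]
  cm : ∀ x ∈ S, ∀ y ∈ S, x * y = y * x ∨ x * y * x⁻¹ = z * y
  b0 : ∀ x ∈ S, ∀ y ∈ S, ¬ S ≤ C[x] → ¬ S ≤ C[y] → x * y = y * x → S ≤ C[x * y]
  na : ∃ a ∈ S, ∃ b ∈ S, a * b * a⁻¹ = z * b

theorem q4_of (hS : Syl 2 S ⊤) (hna : ¬ Ab S) (h4 : Z(S).relIndex S = 4) : ∃ z, Q4 S z := by
  have h1 : ∀ y ∈ S, ¬ S ≤ C[y] → Z(S).relIndex (S ⊓ C[y]) = 2 ∧ (S ⊓ C[y]).relIndex S = 2 := fun y hy e => by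
    have a : Z(S) ≤ S ⊓ C[y] := inf_le_inf_left _ (cen_le_cen1 hy)
    have := (relIndex_mul a inf_le_left).trans h4
    have b : Z(S).relIndex (S ⊓ C[y]) ≠ 1 := fun k => e (le_cen1.2 (relIndex_eq_one.1 k ⟨hy, mem_cen1.2 rfl⟩).2)
    have c : (S ⊓ C[y]).relIndex S ≠ 1 := fun k => e ((relIndex_eq_one.1 k).trans inf_le_right)
    generalize Z(S).relIndex (S ⊓ C[y]) = i at *
    generalize (S ⊓ C[y]).relIndex S = j at *
    have : i ≤ 4 := Nat.le_of_dvd (by norm_num) ⟨j, this.symm⟩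
    interval_cases i <;> omega
  have h2 : ∀ x ∈ S, ∀ y ∈ S, ¬ S ≤ C[x] → ¬ S ≤ C[y] → x * y = y * x → S ≤ C[x * y] := fun x hx y hy a b e =>
    le_cen1.2 ((mul_mem_of_index_two (inf_le_inf_left _ (cen_le_cen1 hy)) (h1 y hy b).1 ⟨hx, mem_cen1.2 e⟩
      ⟨hy, mem_cen1.2 rfl⟩).2 (iff_of_false (fun k => a (le_cen1.2 k.2)) fun k => b (le_cen1.2 k.2))).2
  have nc : ∀ {x y : G}, x ∈ S → x * y ≠ y * x → ¬ S ≤ C[y] := fun a b e => b (mem_cen1.1 (e a))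
  have h3 : ∀ x ∈ S, ∀ y ∈ S, ∀ x' ∈ S, x * y ≠ y * x → x' * y ≠ y * x' → x * y * x⁻¹ = x' * y * x'⁻¹ :=
    fun x hx y hy x' hx' a b => by
      have := mem_cen1.1 ((mul_mem_of_index_two inf_le_left (h1 y hy (nc hx a)).2 (inv_mem hx') hx).2 (iff_of_false
        (fun k => b (mem_cen1.1 (inv_mem_iff.1 k).2)) fun k => a (mem_cen1.1 k.2))).2
      rw [show x * y * x⁻¹ = x' * (x'⁻¹ * x * y) * x⁻¹ by group, this]; group
  have h5 : ∀ x ∈ S, ∀ y ∈ S, x * y ≠ y * x → S ≤ C[x * y * x⁻¹ * y⁻¹] := fun x hx y hy a => by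
    have b := nc hx a
    have c := (nml_of_index_two inf_le_left (h1 y hy b).2).conj_mem hx ⟨hy, mem_cen1.2 rfl⟩
    have d := h2 _ c.1 y hy (fun e => b (cj_le_cj.1 (by rwa [cj_of_mem hx, cj_cen1]))) b (mem_cen1.1 c.2)
    simpa [mul_assoc] using le_cen1.2 (mul_mem (le_cen1.1 d) (inv_mem (le_cen1.1 (h2 y hy y hy b b rfl))))
  obtain ⟨a, ha, b, hb, e⟩ : ∃ a ∈ S, ∃ b ∈ S, a * b ≠ b * a := by
    by_contra! e
    exact hna (ab_iff_forall.2 e)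
  have h6 := h5 a ha b hb e
  have h7 : a * b * a⁻¹ * b⁻¹ * (a * b * a⁻¹ * b⁻¹) = 1 := by
    rw [mul_assoc, mem_cen1.1 (h6 (inv_mem hb)), ← mul_assoc, show a * b * a⁻¹ * (a * b * a⁻¹ * b⁻¹) * b⁻¹ =
      a * (b * b) * a⁻¹ * (b * b)⁻¹ by group, mem_cen1.1 (h2 b hb b hb (nc ha e) (nc ha e) rfl ha)]
    simp
  have h8 : ∀ y ∈ S, a * y ≠ y * a → a * y * a⁻¹ * y⁻¹ = a * b * a⁻¹ * b⁻¹ := fun y hy k => by
    rw [show a * y * a⁻¹ * y⁻¹ = a * (y * a * y⁻¹)⁻¹ by group, h3 y hy a ha b hb k.symm e.symm]; group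
  refine ⟨a * b * a⁻¹ * b⁻¹, hS, invo_of h7 fun k => e (by rwa [mul_inv_eq_one, mul_inv_eq_iff_eq_mul] at k),
    mul_mem (mul_mem (mul_mem ha hb) (inv_mem ha)) (inv_mem hb), h6, fun x hx y hy => or_iff_not_imp_left.2 fun k => ?_,
    h2, a, ha, b, hb, by group⟩
  by_cases e1 : a * y = y * a
  swap
  · rw [← h8 y hy e1, h3 x hx y hy a ha k e1]; group
  have e2 := mem_cen1.1 (h2 a ha y hy (nc hb (Ne.symm e)) (nc hx k) e1 hb)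
  have e3 : b * y * b⁻¹ = a * b * a⁻¹ * b⁻¹ * y :=
    calc _ = b * a⁻¹ * b⁻¹ * (b * (a * y)) * b⁻¹ := by group
      _ = a⁻¹ * (a * b * a⁻¹ * b⁻¹) * a * y := by rw [e2]; group
      _ = _ := by rw [mem_cen1.1 (h6 (inv_mem ha)), inv_mul_cancel_right]
  rw [← e3]
  exact h3 x hx y hy b hb k fun k' => e (by
    rw [k', mul_inv_cancel_right, eq_comm, mul_eq_right, mul_inv_eq_one, mul_inv_eq_iff_eq_mul] at e3
    exact e3)

/-- the elements centralising `z` and fixing `x` modulo `z` -/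
def St (hz : Invo z) (x : G) : Subgroup G where
  carrier := {g | g ∈ C[z] ∧ (g * x * g⁻¹ = x ∨ g * x * g⁻¹ = z * x)}
  one_mem' := ⟨one_mem _, .inl (by simp)⟩
  mul_mem' {a b} ha hb := ⟨mul_mem ha.1 hb.1, by
    have h1 := mul_inv_eq_iff_eq_mul.2 (mem_cen1.1 ha.1)
    rw [show a * b * x * (a * b)⁻¹ = a * (b * x * b⁻¹) * a⁻¹ by group]
    rcases hb.2 with e | e <;> rw [e]
    · exact ha.2
    rw [← conj_mul, h1]
    exact ha.2.symm.imp (fun e => by rw [e, hz.cancel]) fun e => by rw [e]⟩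
  inv_mem' {a} ha := ⟨inv_mem ha.1, ha.2.imp (fun e => by rw [← e]; simpa [mul_assoc] using e.symm) fun e => by
    have : a * (z * x) * a⁻¹ = x := by rw [← conj_mul, e, mem_cen1.1 ha.1, mul_inv_cancel_right, hz.cancel]
    calc _ = a⁻¹ * (a * (z * x) * a⁻¹) * a⁻¹⁻¹ := by rw [this]
      _ = _ := by group⟩

theorem St.odd {hz : Invo z} (hg : g ∈ St hz x) (ho : Odd (orderOf g)) : g ∈ C[x] := by
  rcases hg.2 with e | e
  · exact mem_cen1.2 (mul_inv_eq_iff_eq_mul.1 e)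
  refine mem_of_sq_mem ho (mem_cen1.2 (mul_inv_eq_iff_eq_mul.1 ?_))
  rw [show g * g * x * (g * g)⁻¹ = g * (g * x * g⁻¹) * g⁻¹ by group, e, ← conj_mul, e, mem_cen1.1 hg.1,
    mul_inv_cancel_right, hz.cancel]

theorem dh8 (hz : Invo z) (hy : Invo y) (h1 : r * r = z) (h2 : y * r * y⁻¹ = z * r) :
    Dh (⟪r⟫ ⊔ ⟪y⟫) ⟪r⟫ z ∧ #⟪r⟫ = 4 := by
  have h3 : orderOf r = 2 ^ 2 := orderOf_eq_prime_pow (by rw [pow_one, sq, h1]; exact hz.ne)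
    (by rw [show 2 ^ (1 + 1) = 2 * 2 by rfl, pow_mul, sq, sq, h1, hz.sq])
  refine ⟨dh_gen ((pElt_iff Nat.prime_two).2 ⟨2, h3 ▸ pow_orderOf_eq_one r⟩) hy (h2.trans (eq_inv_of_mul_eq_one_left
    (by rw [mul_assoc, h1, hz.sq]))) (fun e => hz.ne ?_) hz (h1 ▸ mul_mem (mem_zpowers r) (mem_zpowers r)),
    (card_zpowers' r).trans h3⟩
  simpa [(ab_zpowers r).comm e (mem_zpowers r)] using h2

namespace Q4
variable (h : Q4 S z)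
include h

theorem mv (hy : y ∈ S) (h1 : ¬ S ≤ C[y]) : ∃ s ∈ S, s * y * s⁻¹ = z * y :=
  let ⟨s, a, b⟩ := SetLike.not_le_iff_exists.1 h1; ⟨s, a, (h.cm s a y hy).resolve_left fun e => b (mem_cen1.2 e)⟩

theorem fz (hk : k ∈ N(S)) : k * z * k⁻¹ = z := by
  obtain ⟨a, ha, b, hb, e⟩ := h.na
  have h1 : k * a * k⁻¹ * (k * b * k⁻¹) * (k * a * k⁻¹)⁻¹ = k * z * k⁻¹ * (k * b * k⁻¹) := by
    rw [conj_mul (a := z), ← e]; group
  rcases h.cm _ (conj_mem hk ha) _ (conj_mem hk hb) with e | e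
  · exact ((h.hz.conj k).ne (by simpa only [e, mul_inv_cancel_right, right_eq_mul] using h1)).elim
  exact mul_right_cancel (h1.symm.trans e)

theorem eq_z (hx : S ≤ C[x]) (e : IsConj z x) : x = z :=
  let ⟨_, h1, _, h2⟩ := burn h.syl h.zc hx e; h2.symm.trans (h.fz h1)

theorem cz (hm : S ≤ C[m]) : S ≤ C[z * m] := le_cen1.2 (mul_mem (le_cen1.1 h.zc) (le_cen1.1 hm))

theorem nzm (hm : S ≤ C[m]) : ¬ IsConj m (z * m) := fun e => by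
  obtain ⟨k, h1, h2, h3⟩ := burn h.syl hm (h.cz hm) e
  exact h.hz.ne (by simpa [mem_cen1.1 (St.odd (hz := h.hz) ⟨mem_cen1.2 (mul_inv_eq_iff_eq_mul.1 (h.fz h1)),
    .inr h3⟩ h2)] using h3)

theorem tv (ht : t ∈ S) (t2 : ¬ S ≤ C[t]) (g1 : S ≤ C[g * t * g⁻¹])
    (g2 : ∀ u ∈ S, u ∈ C[t] → g * u * g⁻¹ ∈ S) : ¬ S ≤ C[g * z * g⁻¹] := fun g3 => by
  have g3 := h.eq_z g3 (isC g z)
  have h1 := g2 t ht (mem_cen1.2 rfl)
  obtain ⟨c, z1, z2⟩ : ∃ z ∈ Z(S), ¬ S ≤ C[g * z * g⁻¹] := by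
    by_contra! e
    have := conj_mem' (mem_nrm_of_cj_le (cj_le_iff.2 fun z hz => mem_cj.2 (by
      simpa using mem_inf.2 ⟨g2 z hz.1 (cen_le_cen1 ht hz.2), le_cen1.1 (e z hz)⟩)))
      (mem_inf.2 ⟨h1, le_cen1.1 g1⟩ : _ ∈ Z(S))
    exact t2 (le_cen1.2 (by simpa [mul_assoc] using this.2))
  have z3 := g2 c z1.1 (cen_le_cen1 ht z1.2)
  obtain ⟨s, s1, s2⟩ := h.mv ht t2
  obtain ⟨w, w1, w2⟩ := h.mv z3 z2
  have s3 : g * s * g⁻¹ ∈ C[z] := g3 ▸ cj_cen1 g z ▸ conj_mem_cj.2 (h.zc s1)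
  have s4 : g * s * g⁻¹ ∈ C[g * c * g⁻¹] := cj_cen1 g c ▸ conj_mem_cj.2 (le_cen1.2 z1.2 s1)
  have s5 : g * s * g⁻¹ * (g * t * g⁻¹) * (g * s * g⁻¹)⁻¹ = z * (g * t * g⁻¹) := by
    rw [← g3, conj_mul (a := z) (b := g), ← s2]; group
  generalize g * s * g⁻¹ = s at s3 s4 s5
  generalize g * t * g⁻¹ = u at *
  generalize g * c * g⁻¹ = v at *
  have fx : ∀ {x y : G}, x ∈ C[y] → x * y * x⁻¹ = y := fun a => mul_inv_eq_iff_eq_mul.2 (mem_cen1.1 a)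
  obtain ⟨P, hP, h2⟩ := (h.syl.pi.mono (inf_le_left (b := St h.hz u ⊓ St h.hz v))).exists_syl inf_le_right
  have h3 : ∀ x ∈ S, x ∈ P := fun x a => h2 ⟨a, ⟨h.zc a, .inl (fx (g1 a))⟩, h.zc a, (h.cm x a v z3).imp_left
    mul_inv_eq_iff_eq_mul.2⟩
  have h4 : w ∉ C[v] := fun e => h.hz.ne (by simpa [mem_cen1.1 e] using w2)
  have h5 : ¬ P ≤ C[u] := fun e => h.hz.ne (by
    have := (Hall.piGen_sup (π := {2}ᶜ) (by rwa [compl_compl])).ge.trans (sup_le (piGen_le_iff.2 fun x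
      (a : x ∈ St h.hz u ⊓ St h.hz v) c => St.odd a.1 (card_zpowers' x ▸ odd_zpowers c)) e)
      ⟨⟨s3, .inr s5⟩, s3, .inl (fx s4)⟩
    simpa [mem_cen1.1 this] using s5)
  exact h5 ((h.syl.max hP.pi h3 le_top).le.trans g1)

theorem key (hy : y ∈ S) (h1 : ¬ S ≤ C[y]) (e : IsConj z y) : ∃ K : Subgroup G, z ∉ K ∧
    (∀ m ∈ Z(S), ¬ IsConj m (y * m) ↔ m ∈ K) ∧ (∀ m ∈ Z(S), ∀ n ∈ Z(S), m ∉ K → n ∉ K → m * n ∈ K) ∧
    ∀ m ∈ Z(S), IsConj z (y * m) → m = 1 ∨ m = z := by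
  obtain ⟨g, g1, g2⟩ := extr h.syl h.zc e.symm
  have h2 : ∀ m ∈ Z(S), g * m * g⁻¹ ∈ S := fun m hm => g2 m hm.1 (cen_le_cen1 hy hm.2)
  have h3 : ∀ m ∈ Z(S), m ∈ cj g⁻¹ C(S) ↔ S ≤ C[g * m * g⁻¹] := fun m hm => by rw [mem_cj, inv_inv, le_cen1]
  have h4 : ∀ m, IsConj (y * m) (z * (g * m * g⁻¹)) := fun m => by rw [← g1, conj_mul]; exact isC g _
  have h5 : ∀ m ∈ Z(S), m ∉ cj g⁻¹ C(S) → IsConj m (y * m) := fun m hm k => by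
    obtain ⟨s, -, hs⟩ := h.mv (h2 m hm) (mt (h3 m hm).2 k)
    exact (isC g m).trans ((hs ▸ isC s _).trans (h4 m).symm)
  refine ⟨cj g⁻¹ C(S), fun k => h.tv hy h1 (g1 ▸ h.zc) g2 ((h3 z ⟨h.zS, le_cen1.1 h.zc⟩).1 k),
    fun m hm => ⟨fun k => by_contra fun k' => k (h5 m hm k'), fun k k' => h.nzm ((h3 m hm).1 k)
      ((isC g m).symm.trans (k'.trans (h4 m)))⟩, fun m hm n hn a b => (h3 _ (mul_mem hm hn)).2 ?_, fun m hm k => ?_⟩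
  · rw [← conj_mul]
    exact h.b0 _ (h2 m hm) _ (h2 n hn) (mt (h3 m hm).2 a) (mt (h3 n hn).2 b) (by
      rw [conj_mul, conj_mul, mem_cen.1 hn.2 m hm.1])
  by_cases k' : m ∈ cj g⁻¹ C(S)
  · exact .inl (by simpa using h.eq_z (h.cz ((h3 m hm).1 k')) (k.trans (h4 m)))
  exact .inr (h.eq_z (le_cen1.2 hm.2) (k.trans (h5 m hm k').symm))

/-- the central elements not fused outside the centre -/
def UU : Subgroup G where
  carrier := {m | m ∈ Z(S) ∧ ∀ y ∈ S, ¬ S ≤ C[y] → IsConj z y → ¬ IsConj m (y * m)}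
  one_mem' := ⟨one_mem _, fun y _ a _ e => a (by rw [← (by simpa using e : 1 = y), cen1_one]; exact le_top)⟩
  mul_mem' {a b} ha hb := ⟨mul_mem ha.1 hb.1, fun y h1 h2 h3 =>
    let ⟨_, _, k, _⟩ := h.key h1 h2 h3
    (k _ (mul_mem ha.1 hb.1)).2 (mul_mem ((k a ha.1).1 (ha.2 y h1 h2 h3)) ((k b hb.1).1 (hb.2 y h1 h2 h3)))⟩
  inv_mem' {a} ha := ⟨inv_mem ha.1, fun y h1 h2 h3 =>
    let ⟨_, _, k, _⟩ := h.key h1 h2 h3
    (k _ (inv_mem ha.1)).2 (inv_mem ((k a ha.1).1 (ha.2 y h1 h2 h3)))⟩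

theorem uu_sc : IsStronglyClosed h.UU S := by
  refine ⟨fun x hx => hx.1.1, fun m hm g hg => ?_⟩
  by_cases e : S ≤ C[g * m * g⁻¹]
  · obtain ⟨k, h1, -, h2⟩ := burn h.syl (le_cen1.2 hm.1.2) e (isC g m)
    refine ⟨⟨hg, le_cen1.1 e⟩, fun y a b c d => hm.2 _ (conj_mem' h1 a) (fun e => b (cj_le_cj.1 (by
      rwa [cj_of_mem_nrm (inv_mem h1), cj_cen1, inv_inv]))) (c.trans (by simpa using isC k⁻¹ y)) ?_⟩
    rw [← h2] at d
    exact (isC k m).trans (d.trans (by simpa [mul_assoc] using isC k⁻¹ (y * (k * m * k⁻¹))))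
  obtain ⟨k, k1, k2⟩ := extr h.syl (le_cen1.2 hm.1.2) (isC g m).symm
  obtain ⟨s, -, hs⟩ := h.mv hg e
  refine (hm.2 _ (k2 z h.zS (cen1_comm.1 (h.zc hg))) (h.tv hg e (k1.symm ▸ le_cen1.2 hm.1.2) k2) (isC k z)
    ((isC g m).trans ((hs ▸ isC s _).trans ?_))).elim
  simpa only [← conj_mul, k1] using isC k (z * (g * m * g⁻¹))

theorem der_le : ⁅S, S⁆ ≤ ⟪z⟫ := commutator_le.2 fun x hx y hy => by
  rcases h.cm x hx y hy with e | e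
  · simp [commutatorElement_def, e]
  simp [commutatorElement_def, e]

theorem near (hy : y ∈ S) (h1 : ¬ S ≤ C[y]) (e : IsConj z y) (hx : x ∈ S) (h2 : ¬ S ≤ C[x]) (e' : IsConj z x)
    (hc : y * x = x * y) (hm : m ∈ Z(S)) (k : IsConj m (x * m)) : IsConj m (y * m) := by
  obtain ⟨g, rfl⟩ := isConj_iff.1 e
  obtain ⟨-, -, -, -, h3⟩ := h.key hy h1 e
  rcases h3 _ ⟨mul_mem hy hx, le_cen1.1 (h.b0 _ hy x hx h1 h2 hc)⟩ (by rwa [(h.hz.conj g).cancel]) with k' | k'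
  · rwa [← (h.hz.conj g).inv, inv_eq_of_mul_eq_one_right k']
  obtain ⟨s, s1, s2⟩ := h.mv hy h1
  refine k.trans (IsConj.symm ?_)
  rw [← (h.hz.conj g).cancel x, k', mem_cen1.1 (h.zc hy), ← s2]
  simpa only [← conj_mul, mem_cen.1 hm.2 s s1, mul_inv_cancel_right] using isC s (g * z * g⁻¹ * m)

theorem main (hp : ⁅(⊤ : Subgroup G), (⊤ : Subgroup G)⁆ = ⊤) (hU : h.UU ≤ C((⊤ : Subgroup G))) :
    Z(S) = ⟪z⟫ ∧ (z ∈ C((⊤ : Subgroup G)) ∨ ∃ y ∈ S, ¬ S ≤ C[y] ∧ Invo y) := by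
  have zZ : z ∈ Z(S) := ⟨h.zS, le_cen1.1 h.zc⟩
  have h1 : h.UU ≤ ⟪z⟫ := (le_inf (le_inf h.uu_sc.1 (le_top.trans hp.ge)) hU).trans
    (h.syl.isHall.inf_der_center.trans h.der_le)
  by_cases e : ∃ y ∈ S, ¬ S ≤ C[y] ∧ IsConj z y
  swap
  · push Not at e
    have : Z(S) ≤ h.UU := fun m hm => ⟨hm, fun y a b c => (e y a b c).elim⟩
    exact ⟨le_antisymm (this.trans h1) (zpowers_le.2 zZ), .inl (hU (this zZ))⟩
  obtain ⟨y, y1, y2, y3⟩ := e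
  have inv : ∀ {x}, IsConj z x → Invo x := fun e => (isConj_iff.1 e).choose_spec ▸ h.hz.conj _
  refine ⟨le_antisymm (fun m hm => by_contra fun e => ?_) (zpowers_le.2 zZ), .inr ⟨y, y1, y2, inv y3⟩⟩
  obtain ⟨K, k1, k2, k3, -⟩ := h.key y1 y2 y3
  wlog m1 : m ∈ K generalizing m
  · exact this _ (mul_mem zZ hm) (fun k => e ((mul_mem_cancel_left (mem_zpowers z)).1 k)) (k3 z zZ m hm k1 m1)
  obtain ⟨x, x1, x2, x3, x4⟩ : ∃ x ∈ S, ¬ S ≤ C[x] ∧ IsConj z x ∧ IsConj m (x * m) := by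
    by_contra! k
    exact e (h1 ⟨hm, k⟩)
  obtain ⟨L, l1, l2, l3, -⟩ := h.key x1 x2 x3
  have m2 : m ∉ L := fun k => (l2 m hm).2 k x4
  have h2 : y * x * y⁻¹ = z * x := (h.cm y y1 x x1).resolve_left fun k =>
    (k2 m hm).2 m1 (h.near y1 y2 y3 x1 x2 x3 k hm x4)
  have h3 : y * x * (y * x) = z := by rw [← mul_assoc, ← (inv y3).inv, (inv y3).inv, ← (inv x3).cancel' z, ← h2,
    (inv y3).inv]
  have h4 : y * (y * x) * y⁻¹ = z * (y * x) := by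
    rw [mul_assoc y, h2, ← mul_assoc, mem_cen1.1 (h.zc y1), mul_assoc]
  have h5 : ¬ S ≤ C[y * x] := fun k => h.hz.ne (by simpa [mem_cen1.1 (k y1)] using h4)
  have h6 : ∀ w ∈ S, w * y = y * w ∨ w * x = x * w ∨ w * (y * x) = y * x * w := fun w hw =>
    (h.cm w hw y y1).imp_right fun a => (h.cm w hw x x1).imp_right fun b => mul_inv_eq_iff_eq_mul.1 (by
      rw [← conj_mul, a, b, mul_assoc, ← mul_assoc y, mem_cen1.1 (h.zc y1), mul_assoc, h.hz.cancel])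
  have h7 : ∀ c ∈ Z(S), c ∈ K → c ∈ L → c = 1 := fun c c1 c2 c3 => by
    refine (h.hz.mem_zpowers.1 (h1 ⟨c1, fun w w1 w2 w3 w4 => ?_⟩)).resolve_right fun k => k1 (k ▸ c2)
    rcases h6 w w1 with a | a | a
    · exact (k2 c c1).2 c2 (h.near y1 y2 y3 w1 w2 w3 a.symm c1 w4)
    · exact (l2 c c1).2 c3 (h.near x1 x2 x3 w1 w2 w3 a.symm c1 w4)
    have b : w * (y * x) ∈ Z(S) := ⟨mul_mem w1 (mul_mem y1 x1), le_cen1.1 (h.b0 w w1 _ (mul_mem y1 x1) w2 h5 a)⟩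
    refine k1 ((show w * (y * x) * (w * (y * x)) = z by
      rw [mul_assoc, ← mul_assoc (y * x), ← a, mul_assoc, h3, (inv w3).cancel]) ▸ ?_)
    exact (em _).elim (fun k => mul_mem k k) fun k => k3 _ b _ b k k
  obtain ⟨hD, h8⟩ := dh8 h.hz (inv y3) h3 h4
  have h9 : ⟪y * x⟫ ⊔ ⟪y⟫ ≤ S := sup_le (zpowers_le.2 (mul_mem y1 x1)) (zpowers_le.2 y1)
  have m3 : Invo m := invo_of (h7 _ (mul_mem hm hm) (mul_mem m1 m1) (l3 m hm m hm m2 m2)) fun k => e (k ▸ one_mem _)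
  have h10 : ∀ c ∈ Z(S), c ∈ ⟪y * x⟫ ⊔ ⟪y⟫ → c ∈ ⟪z⟫ := fun c a b => h.hz.mem_zpowers.2
    (dh_cen hD (by omega) b (cen_anti h9 a.2))
  have h11 : ⟪m⟫ ≤ N(⟪y * x⟫ ⊔ ⟪y⟫) := cents_norm (zpowers_le.2 (cen_anti h9 hm.2))
  have h12 : S = ⟪y * x⟫ ⊔ ⟪y⟫ ⊔ ⟪m⟫ := by
    have a := mem_sup_left (T := ⟪m⟫) hD.tS
    have b := mem_sup_right (S := ⟪y * x⟫ ⊔ ⟪y⟫) (mem_zpowers m)
    have hc : ∀ c ∈ Z(S), c ∈ K → c ∈ ⟪y * x⟫ ⊔ ⟪y⟫ ⊔ ⟪m⟫ := fun c c1 c2 => (em (c ∈ L)).elim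
      (fun k => h7 c c1 c2 k ▸ one_mem _) fun k => (mul_mem_cancel_right b).1
        (h7 _ (mul_mem c1 hm) (mul_mem c2 m1) (l3 c c1 m hm k m2) ▸ one_mem _)
    have d : Z(S) ≤ ⟪y * x⟫ ⊔ ⟪y⟫ ⊔ ⟪m⟫ := fun c c1 => (em (c ∈ K)).elim (hc c c1) fun k =>
      (mul_mem_cancel_left a).1 (hc _ (mul_mem zZ c1) (k3 z zZ c c1 k1 k))
    have r1 : y * x ∈ ⟪y * x⟫ ⊔ ⟪y⟫ ⊔ ⟪m⟫ := mem_sup_left (mem_sup_left (mem_zpowers _))
    have r2 : y ∈ ⟪y * x⟫ ⊔ ⟪y⟫ ⊔ ⟪m⟫ := mem_sup_left (mem_sup_right (mem_zpowers _))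
    refine le_antisymm (fun w hw => (em (S ≤ C[w])).elim (fun k => d ⟨hw, le_cen1.1 k⟩) fun k => ?_)
      (sup_le h9 (zpowers_le.2 hm.1))
    rcases h6 w hw with a | a | a
    · exact (mul_mem_cancel_right r2).1 (d ⟨mul_mem hw y1, le_cen1.1 (h.b0 w hw y y1 k y2 a)⟩)
    · exact (mul_mem_cancel_right ((mul_mem_cancel_left r2).1 r1)).1
        (d ⟨mul_mem hw x1, le_cen1.1 (h.b0 w hw x x1 k x2 a)⟩)
    exact (mul_mem_cancel_right r1).1 (d ⟨mul_mem hw (mul_mem y1 x1), le_cen1.1 (h.b0 w hw _ (mul_mem y1 x1) k h5 a)⟩)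
  obtain ⟨g, g1, g2⟩ := H29.tt_extremal (P := S) (Nat.not_even_iff_odd.1 fun e => h.syl.not_dvd Nat.prime_two
    (relIndex_top_right S ▸ e.two_dvd)) h9 (by
      rw [congrArg (relIndex _) h12, relIndex_sup_norm h11]
      exact ((Nat.dvd_prime Nat.prime_two).1 (m3.card ▸ relIndex_dvd_card _ _)).resolve_left
        fun k => e (h10 m hm (relIndex_eq_one.1 k (mem_zpowers m)))) m3.sq
    (fun M _ b => (no2_of_perfect hp M le_top (relIndex_top_right M ▸ b)).elim) h.syl.pi.isPGroup (le_cen1.2 hm.2)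
  rcases h.hz.mem_zpowers.1 (h10 _ (conj_mem' (norms_center le_rfl (cj_eq_self.1
    (eq_of_card_eq g2 (card_cj g S).symm).symm)) hm) g1) with k | k
  · exact (m3.conj g⁻¹).ne (by simpa using k)
  exact e (h.eq_z (le_cen1.2 hm.2) (by simpa [← k, mul_assoc] using isC g (g⁻¹ * m * g)) ▸ mem_zpowers z)

theorem dh (hZ : Z(S) = ⟪z⟫) (h8 : #S = 8) (hy : y ∈ S) (h1 : ¬ S ≤ C[y]) (h2 : Invo y) : ∃ T, Dh S T z := by
  obtain ⟨b, b1, b2⟩ := SetLike.not_le_iff_exists.1 h1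
  have h3 := (h.cm y hy b b1).resolve_left fun e => b2 (mem_cen1.2 e.symm)
  have h4 : ¬ S ≤ C[b] := fun e => b2 (cen1_comm.1 (e hy))
  obtain ⟨r, r1, r2, r3⟩ : ∃ r ∈ S, r * r = z ∧ y * r * y⁻¹ = z * r := by
    rcases h.hz.mem_zpowers.1 (hZ.le ⟨mul_mem b1 b1, le_cen1.1 (h.b0 b b1 b b1 h4 h4 rfl)⟩) with e | e
    · exact ⟨y * b, mul_mem hy b1, by rw [← mul_assoc, ← mul_one z, ← e, ← mul_assoc z, ← h3, h2.inv], by
        rw [mul_assoc y, h3, ← mul_assoc, mem_cen1.1 (h.zc hy), mul_assoc]⟩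
    exact ⟨b, b1, e, h3⟩
  obtain ⟨k, e⟩ := dh8 h.hz h2 r2 r3
  exact ⟨_, eq_of_card_eq (sup_le (zpowers_le.2 r1) (zpowers_le.2 hy)) (by rw [k.card, e, h8]) ▸ k⟩

end Q4

end Cfsg.Agent.G75
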